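import Mathlib
import Cfsg.Agent.Lib.Helper50.HUPT.Defs

/-!
# HUPT (S3360): package [CENABS]

Coset representatives of the centre of a class-2 group acting faithfully with scalar centre are
linearly independent endomorphisms; when their number is `(dim V)^2` they span `End V`, so
anything commuting with the group is a scalar.
-/

set_option autoImplicit false

universe u v w

namespace Cfsg.Agent.Lib.Helper38.HUPT

open Cfsg.Agent.Lib.Helper50.HUPT

/-- linear independence of representatives of distinct cosets of the centre -/
theorem cen_li {F : Type u} [Field F] {V : Type u} [AddCommGroup V] [Module F V] [Nontrivial V]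
    {M : Type v} [Group M] (τ : M →* (V ≃ₗ[F] V)) (hinj : Function.Injective τ)
    (hcl : ∀ a b c : M, cm a b * c = c * cm a b)
    (hsc : ∀ z ∈ Subgroup.center M, ∃ c : F, ∀ v : V, τ z v = c • v)
    {ι : Type w} (rep : ι → M)
    (hrep : ∀ i j, (rep i)⁻¹ * rep j ∈ Subgroup.center M → i = j) :
    LinearIndependent F (fun i : ι => ((τ (rep i) : V ≃ₗ[F] V) : V →ₗ[F] V)) := by
  classical
  have hcen : ∀ a b : M, cm a b ∈ Subgroup.center M := by
    intro a b
    rw [Subgroup.mem_center_iff]
    intro g
    exact (hcl a b g).symm
  choose! sc hscv using hsc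
  have hconj : ∀ (b a : M) (v : V), τ b (τ a (τ b⁻¹ v)) = sc (cm b a) • τ a v := by
    intro b a v
    have h1 : b * a * b⁻¹ = cm b a * a := by
      unfold cm; group
    have h2 : τ b (τ a (τ b⁻¹ v)) = τ (b * a * b⁻¹) v := by
      rw [map_mul, map_mul]; rfl
    rw [h2, h1, map_mul, LinearEquiv.mul_apply, hscv _ (hcen b a)]
  rw [linearIndependent_iff']
  intro s
  induction s using Finset.induction_on with
  | empty => intro g _ i hi; simp at hi
  | insert i₁ s' hi₁ ih =>
    intro g hg
    have hgv : ∀ v : V, ∑ i ∈ insert i₁ s', g i • τ (rep i) v = 0 := by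
      intro v
      have := congrArg (fun E : V →ₗ[F] V => E v) hg
      simpa [LinearMap.sum_apply] using this
    have key : ∀ b : M, ∀ i ∈ s', g i * (sc (cm b (rep i)) - sc (cm b (rep i₁))) = 0 := by
      intro b
      apply ih
      apply LinearMap.ext
      intro v
      have e1 : ∑ i ∈ insert i₁ s', g i • sc (cm b (rep i)) • τ (rep i) v = 0 := by
        have := congrArg (fun x : V => τ b x) (hgv (τ b⁻¹ v))
        simp only [map_sum, map_smul, map_zero, hconj] at this
        exact this
      have e2 : ∑ i ∈ insert i₁ s', sc (cm b (rep i₁)) • g i • τ (rep i) v = 0 := by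
        rw [← Finset.smul_sum, hgv v, smul_zero]
      have e3 : ∑ i ∈ insert i₁ s',
          (g i * (sc (cm b (rep i)) - sc (cm b (rep i₁)))) • τ (rep i) v = 0 := by
        have : ∀ i ∈ insert i₁ s',
            (g i * (sc (cm b (rep i)) - sc (cm b (rep i₁)))) • τ (rep i) v
              = g i • sc (cm b (rep i)) • τ (rep i) v
                - sc (cm b (rep i₁)) • g i • τ (rep i) v := by
          intro i _
          rw [smul_smul, smul_smul, ← sub_smul]
          congr 1; ring
        rw [Finset.sum_congr rfl this, Finset.sum_sub_distrib, e1, e2, sub_zero]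
      rw [Finset.sum_insert hi₁] at e3
      simp only [sub_self, mul_zero, zero_smul, zero_add] at e3
      simpa [LinearMap.sum_apply] using e3
    have hs' : ∀ i ∈ s', g i = 0 := by
      intro i hi
      by_contra hne
      have hsceq : ∀ b : M, sc (cm b (rep i)) = sc (cm b (rep i₁)) := by
        intro b
        have := key b i hi
        rcases mul_eq_zero.1 this with h | h
        · exact absurd h hne
        · exact sub_eq_zero.1 h
      have hcmeq : ∀ b : M, cm b (rep i) = cm b (rep i₁) := by
        intro b
        apply hinj
        apply LinearEquiv.ext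
        intro v
        rw [hscv _ (hcen _ _), hscv _ (hcen _ _), hsceq b]
      have hz : (rep i₁)⁻¹ * rep i ∈ Subgroup.center M := by
        rw [Subgroup.mem_center_iff]
        intro b
        have h := hcmeq b⁻¹
        unfold cm at h
        -- b⁻¹ * a * b * a⁻¹ = b⁻¹ * a₁ * b * a₁⁻¹
        have h' : rep i * b * (rep i)⁻¹ = rep i₁ * b * (rep i₁)⁻¹ := by
          have := congrArg (fun x => b * x) h
          simpa [mul_assoc] using this
        calc b * ((rep i₁)⁻¹ * rep i)
            = (rep i₁)⁻¹ * (rep i₁ * b * (rep i₁)⁻¹) * rep i := by group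
          _ = (rep i₁)⁻¹ * (rep i * b * (rep i)⁻¹) * rep i := by rw [h']
          _ = (rep i₁)⁻¹ * rep i * b := by group
      have := hrep i₁ i hz
      exact hi₁ (this ▸ hi)
    intro i hi
    rcases Finset.mem_insert.1 hi with rfl | hi
    · obtain ⟨v, hv⟩ := exists_ne (0 : V)
      have h := hgv v
      rw [Finset.sum_insert hi₁] at h
      have h0 : ∑ j ∈ s', g j • τ (rep j) v = 0 := by
        apply Finset.sum_eq_zero
        intro j hj
        rw [hs' j hj, zero_smul]
      rw [h0, add_zero] at h
      rcases smul_eq_zero.1 h with h | h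
      · exact h
      · exact absurd ((LinearEquiv.map_eq_zero_iff _).1 h) hv
    · exact hs' i hi

/-- an endomorphism commuting with all endomorphisms is a scalar -/
theorem scalar_of_comm_all {F : Type u} [Field F] {V : Type u} [AddCommGroup V] [Module F V]
    (T : V →ₗ[F] V) (hT : ∀ E : V →ₗ[F] V, ∀ v : V, T (E v) = E (T v)) :
    ∃ c : F, ∀ v : V, T v = c • v := by
  by_cases hV : ∀ v : V, v = 0
  · exact ⟨0, fun v => by rw [hV v, map_zero, smul_zero]⟩
  · push Not at hV
    obtain ⟨v₀, hv₀⟩ := hV
    have hker : LinearMap.ker (LinearMap.toSpanSingleton F V v₀) = ⊥ := by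
      rw [LinearMap.ker_eq_bot]
      intro a b hab
      simp only [LinearMap.toSpanSingleton_apply] at hab
      exact smul_left_injective F hv₀ hab
    obtain ⟨φ, hφ⟩ := LinearMap.exists_leftInverse_of_injective _ hker
    have hφ1 : φ v₀ = 1 := by
      have := congrArg (fun f : F →ₗ[F] F => f 1) hφ
      simpa using this
    refine ⟨φ (T v₀), fun w => ?_⟩
    have := hT (LinearMap.smulRight φ w) v₀
    simp only [LinearMap.smulRight_apply, hφ1, one_smul] at this
    exact this

/-- [CENABS] -/
theorem pkgCenAbs : PkgCenAbs.{u, v} := by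
  intro F _ V _ _ _ M _ _ τ hinj hcl hsc hidx T hT
  classical
  by_cases hV : Subsingleton V
  · exact ⟨0, fun v => Subsingleton.elim _ _⟩
  · rw [not_subsingleton_iff_nontrivial] at hV
    have hli := cen_li τ hinj hcl hsc
      (fun i : M ⧸ Subgroup.center M => (Quotient.out i : M))
      (by
        intro i j hij
        have : (QuotientGroup.mk (Quotient.out i) : M ⧸ Subgroup.center M)
            = QuotientGroup.mk (Quotient.out j) := QuotientGroup.eq.2 hij
        simpa using this)
    letI : Fintype (M ⧸ Subgroup.center M) := Fintype.ofFinite _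
    have hcard : Fintype.card (M ⧸ Subgroup.center M) = Module.finrank F (V →ₗ[F] V) := by
      rw [Module.finrank_linearMap, ← sq, ← hidx, Subgroup.index, Nat.card_eq_fintype_card]
    have hspan := hli.span_eq_top_of_card_eq_finrank' hcard
    have hall : ∀ E : V →ₗ[F] V, ∀ v : V, T (E v) = E (T v) := by
      intro E
      have hE : E ∈ Submodule.span F (Set.range
          (fun i : M ⧸ Subgroup.center M =>
            ((τ (Quotient.out i : M) : V ≃ₗ[F] V) : V →ₗ[F] V))) := by
        rw [hspan]; exact Submodule.mem_top
      induction hE using Submodule.span_induction with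
      | mem x hx =>
        obtain ⟨i, rfl⟩ := hx
        intro v
        exact hT _ v
      | zero => intro v; simp
      | add x y _ _ hx hy => intro v; simp [hx v, hy v]
      | smul a x _ hx => intro v; simp [hx v]
    exact scalar_of_comm_all T hall

end Cfsg.Agent.Lib.Helper38.HUPT
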