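import Mathlib
import Cfsg.Agent.Lib.Helper50.HUPT.Defs

set_option autoImplicit false

universe v

namespace Cfsg.Agent.Lib.Helper38.HUPT

open Cfsg.Agent.Lib.Helper50.HUPT

section G24

variable {G : Type v} [Group G] (M : Subgroup G) [hM : M.Normal]

/-- the automorphism of `M / Z(M)` induced by conjugation with `g` -/
noncomputable def qAut (g : G) :
    (↥M ⧸ Subgroup.center ↥M) ≃* (↥M ⧸ Subgroup.center ↥M) :=
  QuotientGroup.congr _ _ (MulAut.conjNormal g : ↥M ≃* ↥M)
    (Subgroup.characteristic_iff_map_eq.1 inferInstance _)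

theorem qAut_mk (g : G) (a : ↥M) :
    qAut M g (QuotientGroup.mk a) = QuotientGroup.mk (MulAut.conjNormal g a) :=
  QuotientGroup.congr_mk _ _ _ _ _

/-- the permutation action of `G` on the non-identity cosets of `Z(M)` in `M` -/
noncomputable def qPerm : G →* Equiv.Perm {x : ↥M ⧸ Subgroup.center ↥M // x ≠ 1} where
  toFun g := (qAut M g).toEquiv.subtypeEquiv (fun x => by simp)
  map_one' := by
    ext ⟨x, hx⟩
    induction x using QuotientGroup.induction_on with
    | H a => simp [qAut_mk]
  map_mul' g h := by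
    ext ⟨x, hx⟩
    induction x using QuotientGroup.induction_on with
    | H a => simp [qAut_mk]

theorem qPerm_ker (g : G) (hg : g ∈ (qPerm M).ker) (a : ↥M) :
    a⁻¹ * MulAut.conjNormal g a ∈ Subgroup.center ↥M := by
  by_cases ha : (QuotientGroup.mk a : ↥M ⧸ Subgroup.center ↥M) = 1
  · have h1 : a ∈ Subgroup.center ↥M := (QuotientGroup.eq_one_iff a).1 ha
    have h2 : MulAut.conjNormal g a ∈ Subgroup.center ↥M := by
      have : (QuotientGroup.mk (MulAut.conjNormal g a) : ↥M ⧸ Subgroup.center ↥M) = 1 := by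
        rw [← qAut_mk, ha, map_one]
      exact (QuotientGroup.eq_one_iff _).1 this
    exact mul_mem (inv_mem h1) h2
  · have h := congrArg (fun p => (p ⟨QuotientGroup.mk a, ha⟩ : ↥M ⧸ Subgroup.center ↥M))
      (MonoidHom.mem_ker.1 hg)
    simp only [qPerm, MonoidHom.coe_mk, OneHom.coe_mk, Equiv.subtypeEquiv_apply,
      Equiv.Perm.coe_one, id_eq] at h
    have h' : qAut M g (QuotientGroup.mk a) = QuotientGroup.mk a := h
    rw [qAut_mk] at h'
    exact QuotientGroup.eq.1 h'.symm


theorem qPerm_index [Finite G] (h4 : (Subgroup.center ↥M).index = 4) :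
    (qPerm M).ker.index ∣ 6 := by
  classical
  rw [Subgroup.index_ker]
  have hcard : Nat.card (↥M ⧸ Subgroup.center ↥M) = 4 := h4
  have h3 : Nat.card {x : ↥M ⧸ Subgroup.center ↥M // x ≠ 1} = 3 := by
    let _ : Fintype (↥M ⧸ Subgroup.center ↥M) := Fintype.ofFinite _
    rw [Nat.card_eq_fintype_card, Fintype.card_subtype_compl, Fintype.card_subtype_eq,
      ← Nat.card_eq_fintype_card, hcard]
  have h6 : Nat.card (Equiv.Perm {x : ↥M ⧸ Subgroup.center ↥M // x ≠ 1}) = 6 := by
    rw [Nat.card_perm, h3]; rfl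
  rw [← h6]
  exact Subgroup.card_subgroup_dvd_card _

theorem sq_mem_center [Finite G] (h4 : (Subgroup.center ↥M).index = 4) (a : ↥M) :
    a ^ 2 ∈ Subgroup.center ↥M := by
  by_contra hcon
  have hx : (QuotientGroup.mk a : ↥M ⧸ Subgroup.center ↥M) ^ 2 ≠ 1 := by
    intro h
    apply hcon
    rw [← QuotientGroup.mk_pow] at h
    exact (QuotientGroup.eq_one_iff _).1 h
  have hcard : Nat.card (↥M ⧸ Subgroup.center ↥M) = 4 := h4
  have hdvd : orderOf (QuotientGroup.mk a : ↥M ⧸ Subgroup.center ↥M) ∣ 4 := by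
    rw [← hcard]; exact orderOf_dvd_natCard _
  have hle : orderOf (QuotientGroup.mk a : ↥M ⧸ Subgroup.center ↥M) ≤ 4 :=
    Nat.le_of_dvd (by norm_num) hdvd
  have hpos : 0 < orderOf (QuotientGroup.mk a : ↥M ⧸ Subgroup.center ↥M) := orderOf_pos _
  have h124 : orderOf (QuotientGroup.mk a : ↥M ⧸ Subgroup.center ↥M) = 1 ∨
      orderOf (QuotientGroup.mk a : ↥M ⧸ Subgroup.center ↥M) = 2 ∨
      orderOf (QuotientGroup.mk a : ↥M ⧸ Subgroup.center ↥M) = 4 := by
    generalize orderOf (QuotientGroup.mk a : ↥M ⧸ Subgroup.center ↥M) = k at hdvd hle hpos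
    interval_cases k <;> simp_all
  rcases h124 with h | h | h
  · rw [orderOf_eq_one_iff] at h; exact hx (by rw [h, one_pow])
  · exact hx (by rw [← h]; exact pow_orderOf_eq_one _)
  · have hcyc : IsCyclic (↥M ⧸ Subgroup.center ↥M) :=
      isCyclic_of_orderOf_eq_card _ (by rw [h, hcard])
    have hcomm : ∀ x y : ↥M, x * y = y * x :=
      commutative_of_cyclic_center_quotient (QuotientGroup.mk' (Subgroup.center ↥M))
        (by rw [QuotientGroup.ker_mk'])
    have htop : Subgroup.center ↥M = ⊤ := by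
      rw [eq_top_iff]; intro x _; rw [Subgroup.mem_center_iff]; intro y; exact hcomm y x
    rw [htop, Subgroup.index_top] at h4
    omega

/-- the 2-torsion of the centre -/
def om (G : Type v) [Group G] : Subgroup ↥(Subgroup.center G) where
  carrier := {z | z ^ 2 = 1}
  one_mem' := one_pow 2
  mul_mem' := by
    intro a b ha hb
    have ha' : a * a = 1 := by rw [← sq]; exact ha
    have hb' : b * b = 1 := by rw [← sq]; exact hb
    have hab : b * a = a * b := by
      apply Subtype.ext
      exact Subgroup.mem_center_iff.1 a.2 b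
    show (a * b) ^ 2 = 1
    rw [sq]
    calc a * b * (a * b) = a * (b * a) * b := by group
      _ = a * (a * b) * b := by rw [hab]
      _ = (a * a) * (b * b) := by group
      _ = 1 := by rw [ha', hb', one_mul]
  inv_mem' := by
    intro a ha
    show a⁻¹ ^ 2 = 1
    rw [inv_pow, show a ^ 2 = 1 from ha, inv_one]

theorem mem_om (z : ↥(Subgroup.center G)) : z ∈ om G ↔ z ^ 2 = 1 := Iff.rfl

theorem card_om_dvd [Finite G] (hc : IsCyclic (Subgroup.center G)) : Nat.card (om G) ∣ 2 := by
  have : IsCyclic ↥(om G) := Subgroup.isCyclic _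
  rw [← IsCyclic.exponent_eq_card]
  apply Monoid.exponent_dvd_of_forall_pow_eq_one
  rintro ⟨z, hz⟩
  apply Subtype.ext
  have : z ^ 2 = 1 := hz
  simpa using this

theorem dl_mem (hZ : ∀ a ∈ M, (∀ b ∈ M, a * b = b * a) → a ∈ Subgroup.center G)
    (g : G) (hg : g ∈ (qPerm M).ker) (a : ↥M) :
    (a : G)⁻¹ * g * a * g⁻¹ ∈ Subgroup.center G := by
  have h := qPerm_ker M g hg a
  have h' : ((a⁻¹ * MulAut.conjNormal g a : ↥M) : G) ∈ Subgroup.center G := by
    apply hZ _ (a⁻¹ * MulAut.conjNormal g a).2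
    intro b hb
    have := Subgroup.mem_center_iff.1 h ⟨b, hb⟩
    exact (congrArg Subtype.val this).symm
  have e : ((a⁻¹ * MulAut.conjNormal g a : ↥M) : G) = (a : G)⁻¹ * g * a * g⁻¹ := by
    simp [MulAut.conjNormal_apply, mul_assoc]
  rwa [e] at h'

theorem dl_sq [Finite G] (h4 : (Subgroup.center ↥M).index = 4)
    (hZ : ∀ a ∈ M, (∀ b ∈ M, a * b = b * a) → a ∈ Subgroup.center G)
    (g : G) (hg : g ∈ (qPerm M).ker) (a : ↥M) :
    ((a : G)⁻¹ * g * a * g⁻¹) ^ 2 = 1 := by
  have hd := dl_mem M hZ g hg a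
  have ha2 : ((a : G)) ^ 2 ∈ Subgroup.center G := by
    have h := sq_mem_center M h4 a
    have : ((a ^ 2 : ↥M) : G) ∈ Subgroup.center G := by
      apply hZ _ (a ^ 2).2
      intro b hb
      have := Subgroup.mem_center_iff.1 h ⟨b, hb⟩
      exact (congrArg Subtype.val this).symm
    simpa using this
  generalize hδ : (a : G)⁻¹ * g * a * g⁻¹ = δ at hd ⊢
  have hdc : ∀ x : G, x * δ = δ * x := Subgroup.mem_center_iff.1 hd
  have h1 : g * a * g⁻¹ = a * δ := by rw [← hδ]; group
  have h2 : g * (a : G) ^ 2 * g⁻¹ = (a : G) ^ 2 := by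
    have := Subgroup.mem_center_iff.1 ha2 g
    rw [this]; group
  have h3 : ((a : G) * δ) ^ 2 = (a : G) ^ 2 * δ ^ 2 := by
    rw [sq, sq, sq]
    calc (a : G) * δ * (a * δ) = a * (δ * a) * δ := by group
      _ = a * (a * δ) * δ := by rw [← hdc a]
      _ = a * a * (δ * δ) := by group
  have h5 : (g * (a : G) * g⁻¹) ^ 2 = g * (a : G) ^ 2 * g⁻¹ := by rw [sq, sq]; group
  have h6 : (a : G) ^ 2 * δ ^ 2 = (a : G) ^ 2 * 1 := by
    rw [← h3, ← h1, h5, h2, mul_one]
  exact mul_left_cancel h6

/-- the homomorphism `g ↦ a⁻¹ g a g⁻¹` on the kernel of the action on `M / Z(M)` -/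
noncomputable def dl [Finite G] (h4 : (Subgroup.center ↥M).index = 4)
    (hZ : ∀ a ∈ M, (∀ b ∈ M, a * b = b * a) → a ∈ Subgroup.center G) (a : ↥M) :
    ↥(qPerm M).ker →* ↥(om G) where
  toFun g := ⟨⟨(a : G)⁻¹ * g * a * (g : G)⁻¹, dl_mem M hZ g g.2 a⟩, by
    rw [mem_om]
    apply Subtype.ext
    simpa using dl_sq M h4 hZ g g.2 a⟩
  map_one' := by
    apply Subtype.ext
    apply Subtype.ext
    simp
  map_mul' g h := by
    apply Subtype.ext
    apply Subtype.ext
    have hz := dl_mem M hZ h h.2 a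
    have hc : (g : G)⁻¹ * ((a : G)⁻¹ * h * a * (h : G)⁻¹)
        = ((a : G)⁻¹ * h * a * (h : G)⁻¹) * (g : G)⁻¹ := Subgroup.mem_center_iff.1 hz _
    show (a : G)⁻¹ * ((g : G) * (h : G)) * a * ((g : G) * (h : G))⁻¹
      = ((a : G)⁻¹ * g * a * (g : G)⁻¹) * ((a : G)⁻¹ * h * a * (h : G)⁻¹)
    calc (a : G)⁻¹ * ((g : G) * (h : G)) * a * ((g : G) * (h : G))⁻¹
        = (a : G)⁻¹ * g * a * (((a : G)⁻¹ * h * a * (h : G)⁻¹) * (g : G)⁻¹) := by group
      _ = (a : G)⁻¹ * g * a * ((g : G)⁻¹ * ((a : G)⁻¹ * h * a * (h : G)⁻¹)) := by rw [hc]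
      _ = _ := by group

theorem dl_eq_one [Finite G] (h4 : (Subgroup.center ↥M).index = 4)
    (hZ : ∀ a ∈ M, (∀ b ∈ M, a * b = b * a) → a ∈ Subgroup.center G) (a : ↥M)
    (g : ↥(qPerm M).ker) : dl M h4 hZ a g = 1 ↔ (g : G) * a = a * g := by
  constructor
  · intro h
    have h' : (a : G)⁻¹ * g * a * (g : G)⁻¹ = 1 := congrArg (fun x => ((x : ↥(om G)) : G)) h
    have : (g : G) * a = a * ((a : G)⁻¹ * g * a * (g : G)⁻¹) * g := by group
    rw [this, h', mul_one]
  · intro h
    apply Subtype.ext
    apply Subtype.ext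
    show (a : G)⁻¹ * g * a * (g : G)⁻¹ = 1
    rw [mul_assoc (a : G)⁻¹, h]; group


theorem center_le_ker : Subgroup.center G ≤ (qPerm M).ker := by
  intro g hg
  rw [MonoidHom.mem_ker]
  ext ⟨x, hx⟩
  induction x using QuotientGroup.induction_on with
  | H a =>
    have : MulAut.conjNormal g a = a := by
      apply Subtype.ext
      rw [MulAut.conjNormal_apply]
      have := Subgroup.mem_center_iff.1 hg a
      rw [← this]; group
    simp [qPerm, qAut_mk, this]

end G24

/-- [G24] -/
theorem pkgG24 : PkgG24.{v} := by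
  intro G _ _ M hM hcyc h4 hZ hC
  classical
  have hcard : Nat.card (↥M ⧸ Subgroup.center ↥M) = 4 := h4
  obtain ⟨a, ha⟩ : ∃ a : ↥M, a ∉ Subgroup.center ↥M := by
    by_contra hcon
    push Not at hcon
    have : Subgroup.center ↥M = ⊤ := by rw [eq_top_iff]; intro x _; exact hcon x
    rw [this, Subgroup.index_top] at h4
    omega
  obtain ⟨b, hb, hab⟩ : ∃ b : ↥M, b ∉ Subgroup.center ↥M ∧ a⁻¹ * b ∉ Subgroup.center ↥M := by
    by_contra hcon
    push Not at hcon
    let _ : Fintype (↥M ⧸ Subgroup.center ↥M) := Fintype.ofFinite _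
    have hsub : (Finset.univ : Finset (↥M ⧸ Subgroup.center ↥M)) ⊆ {1, QuotientGroup.mk a} := by
      intro x _
      induction x using QuotientGroup.induction_on with
      | H c =>
        by_cases hc : c ∈ Subgroup.center ↥M
        · rw [Finset.mem_insert]; left; exact (QuotientGroup.eq_one_iff c).2 hc
        · rw [Finset.mem_insert, Finset.mem_singleton]; right
          exact (QuotientGroup.eq.2 (hcon c hc)).symm
    have h1 := Finset.card_le_card hsub
    rw [Finset.card_univ, ← Nat.card_eq_fintype_card, hcard] at h1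
    have h2 := Finset.card_le_two (a := (1 : ↥M ⧸ Subgroup.center ↥M)) (b := QuotientGroup.mk a)
    omega
  have hker : (Subgroup.center G).subgroupOf (qPerm M).ker
      = ((dl M h4 hZ a).prod (dl M h4 hZ b)).ker := by
    ext g
    rw [Subgroup.mem_subgroupOf, MonoidHom.mem_ker]
    constructor
    · intro hg
      have h1 : dl M h4 hZ a g = 1 :=
        (dl_eq_one M h4 hZ a g).2 (Subgroup.mem_center_iff.1 hg a).symm
      have h2 : dl M h4 hZ b g = 1 :=
        (dl_eq_one M h4 hZ b g).2 (Subgroup.mem_center_iff.1 hg b).symm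
      rw [MonoidHom.prod_apply, h1, h2]; rfl
    · intro hg
      rw [MonoidHom.prod_apply] at hg
      have h1 : (g : G) * a = a * g := (dl_eq_one M h4 hZ a g).1 (congrArg Prod.fst hg)
      have h2 : (g : G) * b = b * g := (dl_eq_one M h4 hZ b g).1 (congrArg Prod.snd hg)
      apply hC
      have hDmem : ∀ m : ↥M,
          m ∈ (Subgroup.centralizer ({(g : G)} : Set G)).subgroupOf M ↔ (g : G) * m = m * g := by
        intro m
        rw [Subgroup.mem_subgroupOf, Subgroup.mem_centralizer_iff]
        constructor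
        · intro h; exact h _ rfl
        · intro h x hx; rw [Set.mem_singleton_iff.1 hx]; exact h
      generalize (Subgroup.centralizer ({(g : G)} : Set G)).subgroupOf M = D at hDmem
      have hCD : Subgroup.center ↥M ≤ D := by
        intro c hc
        rw [hDmem]
        have : (c : G) ∈ Subgroup.center G := by
          apply hZ _ c.2
          intro m hm
          have := Subgroup.mem_center_iff.1 hc ⟨m, hm⟩
          exact (congrArg Subtype.val this).symm
        exact Subgroup.mem_center_iff.1 this g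
      have haD : a ∈ D := (hDmem a).2 h1
      have hbD : b ∈ D := (hDmem b).2 h2
      have hmul := Subgroup.relIndex_mul_index hCD
      rw [h4] at hmul
      have hDtop : D = ⊤ := by
        have hr : (Subgroup.center ↥M).relIndex D ∣ 4 := Dvd.intro _ hmul
        have hrle := Nat.le_of_dvd (by norm_num) hr
        have hrpos : 0 < (Subgroup.center ↥M).relIndex D :=
          Nat.pos_of_dvd_of_pos hr (by norm_num)
        have h124 : (Subgroup.center ↥M).relIndex D = 1 ∨ (Subgroup.center ↥M).relIndex D = 2 ∨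
            (Subgroup.center ↥M).relIndex D = 4 := by
          generalize (Subgroup.center ↥M).relIndex D = k at hr hrle hrpos
          interval_cases k <;> simp_all
        rcases h124 with h | h | h
        · exact absurd (Subgroup.relIndex_eq_one.1 h haD) ha
        · exfalso
          have hidx : ((Subgroup.center ↥M).subgroupOf D).index = 2 := h
          have hiff := Subgroup.mul_mem_iff_of_index_two hidx
            (a := (⟨a, haD⟩ : ↥D)⁻¹) (b := ⟨b, hbD⟩)
          have hmem : (⟨a, haD⟩ : ↥D)⁻¹ * ⟨b, hbD⟩ ∈ (Subgroup.center ↥M).subgroupOf D := by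
            rw [hiff]
            constructor
            · intro h'
              exact absurd (by simpa [Subgroup.mem_subgroupOf] using h') ha
            · intro h'
              exact absurd (by simpa [Subgroup.mem_subgroupOf] using h') hb
          exact hab (by simpa [Subgroup.mem_subgroupOf] using hmem)
        · rw [h] at hmul
          have : D.index = 1 := by omega
          exact Subgroup.index_eq_one.1 this
      intro m hm
      have : (⟨m, hm⟩ : ↥M) ∈ D := by rw [hDtop]; exact Subgroup.mem_top _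
      exact (hDmem _).1 this
  have hrel : (Subgroup.center G).relIndex (qPerm M).ker ∣ 4 := by
    have : (Subgroup.center G).relIndex (qPerm M).ker
        = Nat.card ((dl M h4 hZ a).prod (dl M h4 hZ b)).range := by
      rw [Subgroup.relIndex, hker, Subgroup.index_ker]
    rw [this]
    have h1 : Nat.card ((dl M h4 hZ a).prod (dl M h4 hZ b)).range
        ∣ Nat.card (↥(om G) × ↥(om G)) := Subgroup.card_subgroup_dvd_card _
    rw [Nat.card_prod] at h1
    exact h1.trans (mul_dvd_mul (card_om_dvd hcyc) (card_om_dvd hcyc))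
  have hidx := qPerm_index M h4
  have hfin := Subgroup.relIndex_mul_index (center_le_ker M)
  rw [← hfin]
  exact mul_dvd_mul hrel hidx

end Cfsg.Agent.Lib.Helper38.HUPT
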